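import Cfsg.Agent.Thm.Levi
import Cfsg.Agent.Chev.ReflT

/-!
Integer data producing a Levi datum.
-/

set_option autoImplicit false

namespace Cfsg.Agent.Thm

open Cfsg.Lie Cfsg.Lie.ChevalleyDatum Cfsg.Agent.Chev Equiv Cfsg.Agent.RGD Matrix
open scoped commutatorElement

attribute [-simp] zsmul_eq_mul nsmul_eq_mul

/-- value of a cocharacter on a root -/
def vl (l : ℕ) (ca : ℕ → ℕ → ℤ) (v : ℕ → ℤ) (s : ℕ) : ℤ := ∑ i : Fin l, v i * ca i s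

/-- indicator of zero -/
def ind (a : ℕ) : ℤ := if a = 0 then 1 else 0

/-- the combinatorial conditions -/
structure Chk (D : ChevalleyDatum) (rc ca : ℕ → ℕ → ℤ) (rf : ℕ → ℕ → ℕ) (j m : ℕ) (ρ : ℕ → ℕ → ℕ → ℕ)
    (ε : ℕ → ℕ → ℕ → ℤ) (lam : ℕ → ℤ) (mu : ℕ → ℕ → ℤ) (wd : List ℕ) : Prop where
  lt : ∀ (k : Fin j) (a b : Fin (m + 1)), ρ k a b < D.nroots ∧ ε k a b * ε k a b = 1
  sp : ∀ i : Nd D, 0 ≤ vl D.rank ca lam (D.simple i)
  bd : ∀ s : Rt D, -7 ≤ vl D.rank ca lam s ∧ vl D.rank ca lam s ≤ 7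
  zero : ∀ s : Rt D, vl D.rank ca lam s = 0 ↔ ∃ (k : Fin j) (a b : Fin (m + 1)), a ≠ b ∧ s = ρ k a b
  pos : ∀ (k : Fin j) (a b : Fin (m + 1)), a ≠ b → (D.nroots ≤ 2 * ρ k a b ↔ a < b) ∧
    ρ k b a = D.nroots - 1 - ρ k a b ∧ actN rf wd (ρ k a b) = ρ k b a
  comm : ∀ (k k' : Fin j) (a b c d : Fin (m + 1)), a ≠ b → c ≠ d → k ≠ k' ∨ (b ≠ c ∧ d ≠ a) →
    ρ k' c d ≠ ρ k b a ∧ Nc D (ρ k a b) (ρ k' c d) = 0
  add : ∀ (k : Fin j) (a b c : Fin (m + 1)), a ≠ b → b ≠ c → a ≠ c →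
    (∀ i : Nd D, rc (ρ k a c) i = rc (ρ k b c) i + rc (ρ k a b) i) ∧
      ε k a c = - Nc D (ρ k b c) (ρ k a b) * ε k a b * ε k b c
  mu : ∀ (k k' : Fin j) (a b : Fin (m + 1)), a ≠ b →
    vl D.rank ca (mu k) (ρ k' a b) = if k = k' then ind a - ind b else 0
  wd_lt : allL wd (fun i => Nat.blt i D.rank) = true
  real : ∀ s : Rt D, vl D.rank ca lam (actN rf wd s) = - vl D.rank ca lam s

variable {D : ChevalleyDatum} {C : Cert D} {F : Type*} [Field F] {G : Type*} [Group G] (S : Sys C F G)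

theorem chi_vl {ca : ℕ → ℕ → ℤ} (h : ∀ (i : Nd D) (r : Rt D), D.cartan i r = ca i r) (v : ℕ → ℤ) (t : Fˣ) (s : Rt D) :
    S.chi (S.hh fun i => t ^ v i) s = t ^ vl D.rank ca v s := by
  rw [S.chi_hh, vl, Cert.zpow_sum']
  exact Finset.prod_congr rfl fun i _ => by rw [C.A_sp, h, _root_.zpow_mul]

theorem Chk.thompson {rc ca : ℕ → ℕ → ℤ} {rf : ℕ → ℕ → ℕ} {j m : ℕ} {ρ : ℕ → ℕ → ℕ → ℕ}
    {ε : ℕ → ℕ → ℕ → ℤ} {lam : ℕ → ℤ} {mu : ℕ → ℕ → ℤ} {wd : List ℕ} (h : Chk D rc ca rf j m ρ ε lam mu wd)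
    (hm : 2 ≤ m) (h1 : ∀ (r : Rt D) (i : Nd D), C.rc r i = rc r i)
    (h2 : ∀ (i : Nd D) (r : Rt D), D.cartan i r = ca i r) (h3 : ∀ (i : Nd D) (r : Rt D), (C.ss i r : ℕ) = rf i r)
    [Fintype F] [Finite G] (hφ : Function.Injective S.φ) (hF : 9 ≤ Fintype.card F) :
    ∃ c : G, ∀ g : G, ∃ x y : G, g = (x * c * x⁻¹) * (y * c * y⁻¹) := by
  classical
  have : Nontrivial (Fin (m + 1)) := Fin.nontrivial_iff_two_le.2 (by omega)
  let R : Fin j → ARoot (m + 1) → Rt D := fun k r => ⟨ρ k r.1.1 r.1.2, (h.lt k _ _).1⟩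
  have e1 : ∀ (k : Fin j) (a b : Fin (m + 1)), (ε k a b : F) * ε k a b = 1 := fun k a b => by
    rw [← Int.cast_mul, (h.lt k a b).2, Int.cast_one]
  let E : Fin j → ARoot (m + 1) → Fˣ := fun k r => ⟨ε k r.1.1 r.1.2, ε k r.1.1 r.1.2, e1 _ _ _, e1 _ _ _⟩
  have hrev : ∀ k (r : ARoot (m + 1)), R k ⟨(r.1.2, r.1.1), r.2.symm⟩ = (R k r).rev := fun k r =>
    Fin.ext ((h.pos k _ _ r.2).2.1.trans (rev_val (R k r)).symm)
  have hc : ∀ k k' (r r' : ARoot (m + 1)), k ≠ k' ∨ (r.1.2 ≠ r'.1.1 ∧ r'.1.2 ≠ r.1.1) →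
      R k' r' ≠ (R k r).rev ∧ C.N (R k r) (R k' r') = 0 := fun k k' r r' e => by
    have := h.comm k k' _ _ _ _ r.2 r'.2 e
    exact ⟨fun e' => this.1 (congrArg Fin.val (e'.trans (hrev k r).symm)), this.2⟩
  have hψ : ∀ k, ∃ ψ : SpecialLinearGroup (Fin (m + 1)) F →* G,
      ∀ r t, ψ ((slFam F (m + 1)).x r t) = S.x (R k r) (E k r * t) := fun k => by
    refine exists_homA hm ⟨fun r t => S.x (R k r) (E k r * t), fun r t u => by rw [mul_add, S.x_add]⟩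
      (fun r s a b t u => ?_) fun a b c n1 n2 n3 t u => ?_
    · have := hc k k r s (Or.inr ⟨a, b⟩)
      exact commutatorElement_eq_one_iff_mul_comm.2 (S.commute_of_N this.1 this.2 _ _)
    · have e2 := h.add k a b c n1 n2 n3
      have := S.comm_simple (r := R k ⟨(b, c), n2⟩) (s := R k ⟨(a, b), n1⟩) (v := R k ⟨(a, c), n3⟩)
        (funext fun i => by rw [Pi.add_apply, h1, h1, h1]; exact e2.1 i)
        (fun u e => C.N_ne_zero_of_add e (hc k k _ _ (Or.inr ⟨n2.symm, n3.symm⟩)).2)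
        (fun u e => C.N_ne_zero_of_add e (hc k k _ _ (Or.inr ⟨n3.symm, n1.symm⟩)).2)
        (-(E k ⟨(b, c), n2⟩ * u)) (-(E k ⟨(a, b), n1⟩ * t))
      rw [S.x_neg, S.x_neg, inv_inv, inv_inv] at this
      refine this.trans (congrArg _ ?_)
      change -((Nc D (ρ k b c) (ρ k a b) : F) * -((ε k b c : F) * u) * -((ε k a b : F) * t)) = (ε k a c : F) * (t * u)
      rw [e2.2]; push_cast; ring
  choose ψ hψ using hψ
  obtain ⟨ζ, hζ⟩ := IsCyclic.exists_ofOrder_eq_natCard (α := Fˣ)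
  rw [Nat.card_units, Nat.card_eq_fintype_card] at hζ
  let f : (Nd D → ℤ) →ₗ[ℤ] ℤ := ∑ i : Nd D, lam i • C.prL (C.sp i)
  have hf : ∀ s, f (C.rc s) = vl D.rank ca lam s := fun s => by
    rw [LinearMap.sum_apply, vl]
    exact Finset.sum_congr rfl fun i _ => by rw [LinearMap.smul_apply, C.prL_rc, C.A_sp, h2, smul_eq_mul]
  obtain ⟨w, hw, e3⟩ := Cert.exists_W_act h3 wd h.wd_lt
  obtain ⟨n, hn⟩ := S.exists_over hw
  refine LD.thompson (S := S) (κ := Fin j) (m := m) ⟨R, E, ψ, hψ, f, fun i => hf _ ▸ h.sp i, fun s => ?_,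
    fun k r => (C.pos_iff_val _).trans (h.pos k _ _ r.2).1, hrev, fun k k' e r r' => hc k k' r r' (Or.inl e),
    S.hh fun i => ζ ^ lam i, S.hh_mem _, fun s => ?_, fun t => ?_, n, w, hn, ?_, fun k r => ?_⟩ hφ
    (Fac.big_of_card (by omega))
  · rw [hf, h.zero]
    exact ⟨fun ⟨k, a, b, e, e'⟩ => ⟨k, ⟨(a, b), e⟩, Fin.ext e'⟩,
      fun ⟨k, r, e⟩ => ⟨k, _, _, r.2, congrArg Fin.val e⟩⟩
  · rw [chi_vl S h2, hf, ← orderOf_dvd_iff_zpow_eq_one, hζ]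
    refine ⟨fun e => Int.eq_zero_of_dvd_of_natAbs_lt_natAbs e ?_, fun e => e ▸ dvd_zero _⟩
    have := h.bd s
    omega
  · refine ⟨S.hh (∏ k : Fin j, fun i => t k ^ mu k i), S.hh_mem _, fun k r => ?_⟩
    have : ∀ s, S.chi (S.hh (∏ k : Fin j, fun i => t k ^ mu k i)) s = ∏ k : Fin j, t k ^ vl D.rank ca (mu k) s :=
      fun s => by
        simp only [← chi_vl S h2, S.chi_hh, Finset.prod_apply, ← Finset.prod_zpow]
        exact Finset.prod_comm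
    rw [this, Finset.prod_eq_single k (fun k' _ e => by
      rw [show vl _ _ _ (R k r) = _ from h.mu k' k _ _ r.2, if_neg e, zpow_zero]) (by simp),
      show vl _ _ _ (R k r) = _ from h.mu k k _ _ r.2, if_pos rfl, _root_.zpow_sub, div_eq_mul_inv]
    congr 1
    · unfold ind dd; split_ifs <;> simp
    · unfold ind dd; split_ifs <;> simp
  · refine S.eq_of_chi hφ (S.N_conj_H hn.mem_N (S.hh_mem _)) (inv_mem (S.hh_mem _)) fun i => ?_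
    obtain ⟨s, e⟩ := w.surjective (C.sp i)
    rw [← e, Sys.chi_conj hn (S.hh_mem _), Sys.chi_inv (S.hh_mem _), chi_vl S h2, chi_vl S h2, e3, h.real,
      _root_.zpow_neg, inv_inv]
  · exact Fin.ext ((e3 _).trans ((h.pos k _ _ r.2).2.2.trans (congrArg Fin.val (hrev k r))))

end Cfsg.Agent.Thm
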