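import Cfsg.Agent.Chev.Cent
import Cfsg.Agent.Chev.WClosed

/-!
Gauss decomposition with prescribed torus part (Ellers--Gordeev): every non-trivial element of a Chevalley group is
conjugate to `v * a * u` with `v ∈ U⁻`, `u ∈ U` and `a` a prescribed element of `H`.
-/

set_option autoImplicit false

namespace Cfsg.Agent.Thm

open Cfsg.Lie Cfsg.Lie.ChevalleyDatum Cfsg.Agent.Chev Equiv

attribute [-simp] zsmul_eq_mul nsmul_eq_mul

variable {D : ChevalleyDatum} {C : Cert D} {F : Type*} [Field F] {G : Type*} [Group G] {S : Sys C F G}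

theorem exists_conj_notMem_B (hφ : Function.Injective S.φ) {g : G} (hg : g ≠ 1) : ∃ y, y * g * y⁻¹ ∉ S.B := by
  by_contra h
  push Not at h
  have h1 : ∀ y, y * g * y⁻¹ ∈ S.H := fun y => by
    obtain ⟨u, hu, a, ha, e⟩ := S.mem_B.1 (h y)
    obtain ⟨m, hm⟩ := S.exists_over (C.w0_mem_W Set.univ)
    have h2 : m * u * m⁻¹ ∈ S.Um := hm.acts.conj_mem (fun r hr => by
      simpa [Cert.pos_w0_univ_iff] using hr) hu
    have h3 : m * u * m⁻¹ ∈ S.B := by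
      have := mul_mem (h (m * y)) (inv_mem (S.H_le_B (S.N_conj_H hm.mem_N ha)))
      rwa [show m * y * g * (m * y)⁻¹ = m * (y * g * y⁻¹) * m⁻¹ by group, e,
        show m * (u * a) * m⁻¹ * (m * a * m⁻¹)⁻¹ = m * u * m⁻¹ by group] at this
    have h4 := S.eq_one_of_mem_Um_B h2 h3
    have : u = 1 := by simpa [mul_inv_eq_one] using h4
    rw [e, this, one_mul]; exact ha
  have h2 : g ∈ S.H := by simpa using h1 1
  refine hg (hφ ((Sys.φ_eq_one_of_chi h2 fun i => ?_).trans (map_one _).symm))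
  have h3 := mul_mem (h1 (S.x (C.sp i) 1)) (inv_mem h2)
  have h4 : S.x (C.sp i) 1 * g * (S.x (C.sp i) 1)⁻¹ * g⁻¹ = S.x (C.sp i) (1 - S.chi g (C.sp i)) := by
    rw [S.x_sub, ← mul_one (S.chi g (C.sp i) : F), ← Sys.H_conj_x h2]; group
  rw [h4] at h3
  have h5 := S.eq_one_of_mem_Up_H (S.x_mem_Up (C.pos_sp i) _) h3
  rw [S.x_eq_one_iff, sub_eq_zero] at h5
  exact Units.ext h5.symm

/-- a non-trivial element has a conjugate in a cell of full support -/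
theorem exists_full_cell (hφ : Function.Injective S.φ) {g : G} (hg : g ≠ 1) :
    ∃ y w, S.Cell w (y * g * y⁻¹) ∧ ∀ K, w ∈ C.WJ K → K = Set.univ := by
  classical
  obtain ⟨y0, h0⟩ := exists_conj_notMem_B hφ hg
  obtain ⟨w0, -, c0⟩ := S.exists_cell (y0 * g * y0⁻¹)
  obtain ⟨w, ⟨y, hy⟩, hmax⟩ := Set.exists_max_image {w | ∃ y, S.Cell w (y * g * y⁻¹)} C.ln (Set.toFinite _)
    ⟨w0, y0, c0⟩
  have hw := hy.mem_W
  have hA := C.W_le_Aut hw
  have h1 : w ≠ 1 := by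
    rintro rfl
    have := hmax w0 ⟨y0, c0⟩
    rw [C.ln_one] at this
    exact h0 (Sys.cell_one_iff.1 (Cert.eq_one_of_ln c0.mem_W (by omega) ▸ c0))
  obtain ⟨J, hJ, hmin⟩ := Set.exists_min_image {J | w ∈ C.WJ J} Set.ncard (Set.toFinite _) ⟨_, hw⟩
  have h2 : ∀ K, w ∈ C.WJ K → ∀ i, i ∉ K → w (C.sp i) = C.sp i := fun K hK i hi => by
    have hi' : ¬ C.InJ K (C.sp i) := fun h => hi (C.inJ_sp.1 h)
    have p1 := Cert.pos_map_of_not_inJ hK (C.pos_sp i) hi'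
    have p2 := Cert.pos_map_of_not_inJ (inv_mem hK) (C.pos_sp i) hi'
    by_contra h
    have p3 : C.Pos ((w * C.ss i)⁻¹ (C.sp i)) := by
      rw [mul_inv_rev, C.ss_inv, Perm.mul_apply]
      by_contra h3
      exact h (by nth_rw 1 [← C.eq_sp_of_not_pos_ss p2 h3]; simp)
    have hm := S.over_ns i 1
    have c1 := (hy.mul_ns_of_pos (C.ss_inv i ▸ hm.inv) p1).ns_mul_of_pos hm p3
    have l1 := Cert.Aut.ln_mul_ss_of_pos hA p1
    have l2 := Cert.Aut.ln_ss_mul_of_pos (mul_mem hA (C.ss_mem_Aut i)) p3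
    have := hmax _ ⟨S.n (C.sp i) 1 * y, by
      rwa [show S.n (C.sp i) 1 * y * g * (S.n (C.sp i) 1 * y)⁻¹ =
        S.n (C.sp i) 1 * (y * g * y⁻¹ * (S.n (C.sp i) 1)⁻¹) by group]⟩
    omega
  have h3 : J = Set.univ := by
    refine (C.connected (K := J) fun j hj i hi => ?_).resolve_left ?_
    · have e : ∀ k ∈ J, 0 ≤ (-C.prL (C.sp i)) (C.rc (C.sp k)) := fun k hk => by
        rw [LinearMap.neg_apply, C.prL_rc, neg_nonneg]
        exact C.A_sp_sp_nonpos (by rintro rfl; exact hi hk)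
      have h4 := Cert.dom_unique e hJ fun k hk => by
        have := e k hk
        rw [LinearMap.neg_apply, C.prL_rc] at this ⊢
        rwa [← h2 J hJ i hi, Cert.Aut.A_map hA]
      have h5 := Set.eq_of_subset_of_ncard_le (fun _ h => h.1) (hmin _ h4) (Set.toFinite _)
      have h6 := (h5.ge hj).2
      rwa [LinearMap.neg_apply, C.prL_rc, neg_eq_zero] at h6
    · rintro rfl
      exact h1 (C.WJ_empty.le hJ)
  refine ⟨y, w, hy, fun K hK => ?_⟩
  exact Set.eq_of_subset_of_ncard_le (Set.subset_univ _) (h3 ▸ hmin K hK) (Set.toFinite _)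

variable (S) in
/-- `m ∈ U U⁻ a U` -/
def Tri (m a : G) : Prop := ∃ y ∈ S.Up, ∃ v ∈ S.Um, ∃ u ∈ S.Up, m = y * v * a * u

theorem Tri.step {m a : G} {w : Perm (Rt D)} (h : Tri S m a) (hm : S.Over m w) {i : Nd D}
    (hp : C.Pos (w⁻¹ (C.sp i))) (hφ : Function.Injective S.φ) (t : Fˣ) :
    Tri S (S.n (C.sp i) 1 * m) (S.h (C.sp i) t * a) := by
  obtain ⟨y, hy, v, hv, u, hu, e⟩ := h
  obtain ⟨z, hz, r, rfl⟩ := Sys.split_sp i hy
  set β := C.sp i with hβ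
  obtain ⟨r', e1⟩ := hm.x_mul β (r + (t⁻¹ : Fˣ))
  have hb := S.h_mem β t
  have e2 : S.n β 1 * S.x β (-(t⁻¹ : Fˣ)) = S.h β t * S.x β (t⁻¹ : Fˣ) * S.x β.rev (-t) := by
    have := S.n_eq_h_mul β t⁻¹
    have e3 : S.h β t * S.h β t⁻¹ = 1 := by rw [← S.h_mul hφ, mul_inv_cancel, S.h_one]
    rw [← one_mul (S.n β 1), ← e3, mul_assoc _ _ (S.n β 1), ← this, Sys.n, inv_inv, S.x_neg β]; group
  have hz' : (S.x β (r + (t⁻¹ : Fˣ)))⁻¹ * z * (S.x β (r + (t⁻¹ : Fˣ)))⁻¹⁻¹ ∈ S.U {r | C.Pos r ∧ r ≠ β} := by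
    rw [← S.x_neg]
    exact S.x_conj_mem (Sys.closed_pos_ne i) (Sys.stab_pos_ne i) (fun h => C.not_pos_rev (C.pos_sp i) h.1) _ hz
  refine ⟨_, mul_mem ((S.over_ns i 1).conj_sp hz') (Sys.H_conj_U hb (S.x_mem_Up (C.pos_sp i) (t⁻¹ : Fˣ))),
    _, Sys.H_conj_U hb (mul_mem (S.x_mem_Um (C.not_pos_rev (C.pos_sp i)) (-t)) hv),
    _, mul_mem hu (S.x_mem_Up hp r'), ?_⟩
  have e4 : m = (S.x β (r + (t⁻¹ : Fˣ)))⁻¹ * m * S.x (w⁻¹ β) r' := by rw [mul_assoc, ← e1]; group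
  have e5 : S.x β r = S.x β (r + (t⁻¹ : Fˣ)) * S.x β (-(t⁻¹ : Fˣ)) := by rw [← S.x_add]; congr 1; ring
  rw [e4]
  nth_rw 1 [e, e5]
  calc _ = S.n β 1 * ((S.x β (r + (t⁻¹ : Fˣ)))⁻¹ * z * S.x β (r + (t⁻¹ : Fˣ))) * (S.n β 1)⁻¹ *
      (S.n β 1 * S.x β (-(t⁻¹ : Fˣ))) * v * a * u * S.x (w⁻¹ β) r' := by group
    _ = _ := by rw [e2, ← hβ]; group

theorem tri_word (hφ : Function.Injective S.φ) (l : List (Nd D)) (hl : l.length = C.ln (C.wd l))
    (t : Nd D → Fˣ) (ht : ∀ i, i ∉ l → t i = 1) :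
    S.Over (l.map fun i => S.n (C.sp i) 1).prod (C.wd l) ∧ Tri S (l.map fun i => S.n (C.sp i) 1).prod (S.hh t) := by
  classical
  induction l generalizing t with
  | nil =>
    refine ⟨S.over_one, 1, one_mem _, 1, one_mem _, 1, one_mem _, ?_⟩
    have : S.hh t = 1 := S.eq_of_chi hφ (S.hh_mem t) (one_mem _) fun i => by
      rw [S.chi_hh, Sys.chi_one]; simp [ht]
    simp [this]
  | cons i l ih =>
    have h1 := C.ln_wd_le l
    rw [C.wd_cons, List.length_cons] at hl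
    have hp : C.Pos ((C.wd l)⁻¹ (C.sp i)) := by
      by_contra h
      have := Cert.Aut.ln_ss_mul_of_neg (C.wd_mem_Aut l) h
      omega
    have := Cert.Aut.ln_ss_mul_of_pos (C.wd_mem_Aut l) hp
    obtain ⟨o, h2⟩ := ih (by omega) (Function.update t i 1) fun j hj => by
      by_cases e : j = i
      · simp [e]
      · rw [Function.update_of_ne e]; exact ht j (by simp [e, hj])
    refine ⟨(S.over_ns i 1).mul o, ?_⟩
    have e : S.hh t = S.h (C.sp i) (t i) * S.hh (Function.update t i 1) :=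
      S.eq_of_chi hφ (S.hh_mem t) (mul_mem (S.h_mem _ _) (S.hh_mem _)) fun j => by
        rw [Sys.chi_mul (S.h_mem _ _) (S.hh_mem _), S.chi_hh, S.chi_hh, Sys.chi_h,
          ← Finset.mul_prod_erase _ _ (Finset.mem_univ i), ← Finset.mul_prod_erase _ _ (Finset.mem_univ i)]
        simp only [Function.update_self, one_zpow, one_mul]
        congr 1
        exact Finset.prod_congr rfl fun k hk => by rw [Function.update_of_ne (Finset.ne_of_mem_erase hk)]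
    rw [e]
    exact h2.step o hp hφ _

/-- Gauss decomposition with prescribed torus part. -/
theorem gauss (hφ : Function.Injective S.φ) {g : G} (hg : g ≠ 1) {a : G} (ha : a ∈ S.H) :
    ∃ y, ∃ v ∈ S.Um, ∃ u ∈ S.Up, y * g * y⁻¹ = v * a * u := by
  obtain ⟨y, w, ⟨u, hu, m, hm, u', hu', e⟩, hw⟩ := exists_full_cell hφ hg
  obtain ⟨l, -, rfl, hl⟩ := C.exists_reduced hm.mem_W
  have h1 : ∀ i, i ∈ l := fun i => (hw {j | j ∈ l} (C.wd_mem_WJ fun _ h => h)).ge (Set.mem_univ i)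
  have h2 := (tri_word hφ l hl 1 fun i hi => rfl).1.inv_mul_mem_H hm
  obtain ⟨t, ht⟩ := S.exists_hh hφ (mul_mem ha (inv_mem h2))
  obtain ⟨-, z, hz, v, hv, u'', hu'', e1⟩ := tri_word hφ l hl t fun i hi => (hi (h1 i)).elim
  set n := (l.map fun i => S.n (C.sp i) 1).prod
  refine ⟨(u * z)⁻¹ * y, v, hv, _, mul_mem (mul_mem (Sys.H_inv_conj_U h2 hu'') hu') (mul_mem hu hz), ?_⟩
  have e2 : m = z * v * (a * (n⁻¹ * m)⁻¹) * u'' * (n⁻¹ * m) := by rw [ht, ← e1]; group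
  calc _ = (u * z)⁻¹ * (y * g * y⁻¹) * (u * z) := by group
    _ = _ := by rw [e]; nth_rw 1 [e2]; group

end Cfsg.Agent.Thm
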