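import Cfsg.Agent.RGD.TypeA

/-!
Homomorphisms from `SL_{m+1}(K)` defined by the Steinberg relations.
-/

set_option autoImplicit false

namespace Cfsg.Agent.Thm

open Subgroup Matrix Cfsg.Agent.RGD Cfsg.Agent.RGD.RootComb
open scoped commutatorElement

variable {K : Type*} [Field K] {G : Type*} [Group G]

theorem slFam_hom_ext {n : ℕ} [Nontrivial (Fin n)] {f g : SpecialLinearGroup (Fin n) K →* G}
    (h : ∀ r t, f ((slFam K n).x r t) = g ((slFam K n).x r t)) : f = g := by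
  have : (⊤ : Subgroup (SpecialLinearGroup (Fin n) K)) ≤ f.eqLocus g := by
    rw [← slFam_top n]
    exact US_le fun r _ => Fam.X_le _ fun t => h r t
  exact MonoidHom.ext fun x => this (mem_top x)

theorem exists_homA [Finite K] {m : ℕ} (hm : 2 ≤ m) (Y : Fam (ARoot (m + 1)) K G)
    (h1 : ∀ r s : ARoot (m + 1), r.1.2 ≠ s.1.1 → s.1.2 ≠ r.1.1 → ∀ t u, ⁅Y.x r t, Y.x s u⁆ = 1)
    (h2 : ∀ a b c (h : a ≠ b) (h' : b ≠ c) (h'' : a ≠ c) t u,
      ⁅Y.x ⟨(a, b), h⟩ t, Y.x ⟨(b, c), h'⟩ u⁆ = Y.x ⟨(a, c), h''⟩ (t * u)) :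
    ∃ ψ : SpecialLinearGroup (Fin (m + 1)) K →* G, ∀ r t, ψ ((slFam K (m + 1)).x r t) = Y.x r t := by
  let Z : Fam (ARoot (m + 1)) K (G × SpecialLinearGroup (Fin (m + 1)) K) :=
    ⟨fun r t => (Y.x r t, (slFam K (m + 1)).x r t), fun r t u => Prod.ext (Y.x_add r t u) ((slFam K (m + 1)).x_add r t u)⟩
  have k2 : ∀ a b c (h : a ≠ b) (h' : b ≠ c) (h'' : a ≠ c) t u,
      ⁅Z.x ⟨(a, b), h⟩ t, Z.x ⟨(b, c), h'⟩ u⁆ = Z.x ⟨(a, c), h''⟩ (t * u) := fun a b c h h' h'' t u =>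
    Prod.ext (h2 a b c h h' h'' t u) (slFam_comm h h' h'' t u)
  have hc : (typeA m).CommRel Z.X := by
    rintro ⟨⟨a, b⟩, h⟩ ⟨⟨c, d⟩, h'⟩ - h2
    refine Fam.comm_X_le _ fun t u => ?_
    have h3 : ¬ (c = b ∧ d = a) := fun e => h2 (Subtype.ext (Prod.ext e.1 e.2))
    by_cases e1 : b = c
    · subst e1
      have h4 : a ≠ d := fun e => h3 ⟨rfl, e.symm⟩
      rw [k2 a b d h h' h4 t u]
      exact le_US (U := Z.X) (r := ⟨(a, d), h4⟩) (Or.inl ⟨rfl, rfl⟩) (Fam.x_mem _ _ _)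
    by_cases e2 : d = a
    · subst e2
      have h4 : c ≠ b := Ne.symm e1
      rw [← commutatorElement_inv, k2 c d b h' h h4 u t]
      exact inv_mem (le_US (U := Z.X) (r := ⟨(c, b), h4⟩) (Or.inr ⟨rfl, rfl⟩) (Fam.x_mem _ _ _))
    · have : ⁅Z.x ⟨(a, b), h⟩ t, Z.x ⟨(c, d), h'⟩ u⁆ = 1 :=
        Prod.ext (h1 _ _ e1 e2 t u) (slFam_commute _ _ e1 e2 t u)
      rw [this]; exact one_mem _
  have h3 := (slFam_isChev (K := K) hm).inf_ker (slFam_tau_inj m) (F' := Z) (θ := MonoidHom.snd _ _)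
    (fun _ _ => rfl) hc
  have : Nontrivial (Fin (m + 1)) := Fin.nontrivial_iff_two_le.2 (by omega)
  let θ := (MonoidHom.snd G (SpecialLinearGroup (Fin (m + 1)) K)).comp (US Z.X Set.univ).subtype
  have hb : Function.Bijective θ := by
    refine ⟨(injective_iff_map_eq_one θ).2 fun x hx => Subtype.ext ?_, MonoidHom.range_eq_top.1 ?_⟩
    · exact mem_bot.1 (h3.le ⟨x.2, hx⟩)
    · rw [eq_top_iff, ← slFam_top (m + 1)]
      exact US_le fun r _ => Fam.X_le _ fun t => ⟨⟨Z.x r t, le_US (Set.mem_univ r) (Z.x_mem r t)⟩, rfl⟩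
  refine ⟨((MonoidHom.fst _ _).comp (US Z.X Set.univ).subtype).comp
    (MulEquiv.ofBijective θ hb).symm.toMonoidHom, fun r t => ?_⟩
  have : (MulEquiv.ofBijective θ hb).symm ((slFam K (m + 1)).x r t) =
      ⟨Z.x r t, le_US (Set.mem_univ r) (Z.x_mem r t)⟩ := (MulEquiv.symm_apply_eq _).2 rfl
  simp only [MonoidHom.comp_apply, MulEquiv.coe_toMonoidHom, this]
  rfl

end Cfsg.Agent.Thm
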