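import Cfsg.Agent.Ore.Thm

/-!
Lev's theorem for the regular unipotent class: a matrix of determinant one which is trivial or not scalar is a product
of two regular unipotent matrices.
-/

set_option autoImplicit false

open Polynomial Module

namespace Cfsg.Agent.Thm

open Cfsg.Agent.GLn Cfsg.Agent.Fac Cfsg.Agent.Ore

universe u

variable {K : Type u} [Field K]

section
variable {V : Type*} [AddCommGroup V] [Module K V] [FiniteDimensional K V]

theorem exists_smul_of_one (hd : finrank K V = 1) {v : V} (hv : v ≠ 0) (w : V) : ∃ c : K, c • v = w :=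
  (finrank_eq_one_iff_of_nonzero' v hv).1 hd w

theorem eq_one_of_det (hd : finrank K V = 1) {M : End K V} (hM : LinearMap.det M = 1) : M = 1 := by
  have : Nontrivial V := Module.nontrivial_of_finrank_pos (R := K) (by omega)
  obtain ⟨v, hv⟩ := exists_ne (0 : V)
  obtain ⟨c, hc⟩ := exists_smul_of_one hd hv (M v)
  have e : M = c • 1 := LinearMap.ext fun w => by
    obtain ⟨d, rfl⟩ := exists_smul_of_one hd hv w
    simp [← hc, smul_smul, mul_comm]
  rw [e, LinearMap.det_smul, hd] at hM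
  simpa [show c = 1 by simpa using hM] using e

theorem nd_of_one (hd : finrank K V = 1) (M : End K V) : ND M := fun c => by
  have : Nontrivial V := Module.nontrivial_of_finrank_pos (R := K) (by omega)
  obtain ⟨v, hv⟩ := exists_ne (0 : V)
  exact ⟨v, fun u _ => (exists_smul_of_one hd hv u).imp fun _ h => h.symm⟩

theorem levu_step_two (h : Big K 4) (hd : finrank K V = 2) {M : End K V} (hns : ∀ c : K, M ≠ c • 1)
    (hN : finrank K (LinearMap.ker (M - 1)) + 2 ≤ finrank K V) {ψ : V →ₗ[K] K} (hψ : ψ ≠ 0)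
    {t : V} (ht : t ≠ 0) :
    ∃ (v : V) (φ : V →ₗ[K] K) (_ : φ v = 1), φ (M v) = 1 ∧ ψ v ≠ 0 ∧ φ t ≠ 0 ∧
      φ ∘ₗ M ∘ₗ (LinearMap.ker φ).subtype ≠ 0 ∧ M v ≠ v := by
  have hk : LinearMap.ker (M - 1) = ⊥ := Submodule.finrank_eq_zero.mp (by omega)
  have hi : ∀ x, (M - 1) x = 0 → x = 0 := fun x hx => (Submodule.eq_bot_iff _).1 hk x hx
  have hker : ∀ c : K, LinearMap.ker (M - c • 1) ≠ ⊤ := fun c hc =>
    hns c (sub_eq_zero.mp (LinearMap.ker_eq_top.mp hc))
  obtain ⟨R, Z, r1, r2, r4⟩ : ∃ R Z : Submodule K V, R ≠ ⊤ ∧ Z ≠ ⊤ ∧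
      ∀ v (s : K), M v = s • v → v ∈ R ∨ v ∈ Z := by
    by_cases hb' : ∃ (c : K) (u : V), u ≠ 0 ∧ M u = c • u
    · obtain ⟨c, u, u0, hu⟩ := hb'
      refine ⟨LinearMap.range (M - c • 1), _, fun h => u0 ((LinearMap.injective_iff_surjective.mpr
        (LinearMap.range_eq_top.mp h)) (by simp [hu])), hker c, fun v s hs => ?_⟩
      by_cases he : s = c
      · exact Or.inr (by simp [hs, he])
      · exact Or.inl ⟨(s - c)⁻¹ • v, by simp [hs, ← sub_smul, smul_smul, sub_ne_zero.mpr he]⟩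
    · exact ⟨_, _, hker 0, hker 0, fun v s hs => Or.inl (by
        obtain rfl : v = 0 := by_contra fun h0 => hb' ⟨s, v, h0, hs⟩
        simp)⟩
  obtain ⟨v, v1, v2, v3, v4⟩ := exists_avoid₄ h (fun e => hψ (LinearMap.ker_eq_top.mp e))
    (comap_span_ne_top hN t) r1 r2
  have v0 : v ≠ 0 := by rintro rfl; simp at v1
  have v5 : ∀ s : K, M v ≠ s • v := fun s hs => (r4 v s hs).elim v3 v4
  have v6 : ∀ s : K, (M - 1) v ≠ s • v := fun s hs => v5 (s + 1) (by
    rw [add_smul, ← hs]; simp)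
  obtain ⟨φ, a1, a2⟩ := exists_fun₂ v0 v6 (1 : K) 0
  have h1 := finrank_ker_add_one v φ a1
  have y0 : (⟨(M - 1) v, a2⟩ : LinearMap.ker φ) ≠ 0 := fun e => v6 0 (by simpa using congrArg Subtype.val e)
  have key : ∀ x, φ x = 0 → ∃ c : K, c • (M - 1) v = x := fun x hx => by
    obtain ⟨c, hc⟩ := exists_smul_of_one (K := K) (V := LinearMap.ker φ) (by omega) y0 ⟨x, hx⟩
    exact ⟨c, congrArg Subtype.val hc⟩
  have a3 : φ (M v) = 1 := by
    rw [LinearMap.sub_apply, map_sub, Module.End.one_apply, a1, sub_eq_zero] at a2; exact a2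
  refine ⟨v, φ, a1, a3, v1, fun h0 => ?_, fun h0 => ?_,
    fun e => v5 1 (by simp [e])⟩
  · obtain ⟨c, hc⟩ := key t h0
    have : c ≠ 0 := by rintro rfl; exact ht (by simpa using hc.symm)
    exact v2 (Submodule.mem_span_singleton.mpr ⟨c⁻¹, by rw [← hc, smul_smul]; simp [this]⟩)
  · obtain ⟨c, hc⟩ := key _ (LinearMap.congr_fun h0 ⟨_, a2⟩)
    refine v5 c (sub_eq_zero.mp (hi _ ?_))
    have : (M - 1) (M v) = M ((M - 1) v) := by simp
    rw [map_sub, map_smul, hc, this]; simp

end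

/-- the conclusion of the inductive statement -/
def LevC {V : Type u} [AddCommGroup V] [Module K V] [FiniteDimensional K V] (M : End K V) (k : ℕ)
    (ψ : V →ₗ[K] K) (t : V) : Prop :=
  ∃ B : End K V, ND B ∧ ND (M * B) ∧ B.charpoly = (X - C 1) ^ k ∧
      (M * B).charpoly = (X - C 1) ^ k ∧ (∀ w, w ≠ 0 → B w = (1 : K) • w → ψ w ≠ 0) ∧
      ((∃ u, u ≠ 0 ∧ (M * B) u = (1 : K) • u) → ∀ x, (M * B) x + t ≠ (1 : K) • x)

theorem LevC.step {V : Type u} [AddCommGroup V] [Module K V] [FiniteDimensional K V] {M : End K V} {k : ℕ}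
    {ψ : V →ₗ[K] K} {t v : V} {φ : V →ₗ[K] K} (h1 : φ v = 1) (h0 : φ (M v) ≠ 0) (e1 : φ (M v) = 1)
    (e2 : ψ v ≠ 0) (e3 : φ t ≠ 0)
    (h : LevC (schur M v φ h0) k (φ ∘ₗ M ∘ₗ (LinearMap.ker φ).subtype) (svec M v φ h1)) :
    LevC M (k + 1) ψ t := by
  obtain ⟨B, b1, b2, b3, b4, b5, b6⟩ := h
  refine ⟨luB M v φ h1 B 1, nd_luB M v φ h1 h0 one_ne_zero b1 b5,
    nd_mul_luB M v φ h1 h0 one_ne_zero b2 (by simpa only [e1, one_mul] using b6),
    by rw [charpoly_luB, b3]; ring, by rw [charpoly_mul_luB _ _ _ _ h0, b4, e1, one_mul]; ring,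
    fun w w0 hw => ?_, fun _ x hx => e3 ?_⟩
  · obtain ⟨r, rfl⟩ := eigen_luB M v φ h1 h0 one_ne_zero b1 b5 w hw
    simpa [e2] using fun h => w0 (by simp [h])
  · have := congrArg φ hx
    rw [map_add, left_luB _ _ _ _ h0, e1] at this
    simpa using this

theorem levu_ind (h : Big K 4) (k : ℕ) : ∀ (V : Type u) [AddCommGroup V] [Module K V] [FiniteDimensional K V]
    (M : End K V), finrank K V = k + 2 → LinearMap.det M = 1 → (∀ c : K, M ≠ c • 1) →
    finrank K (LinearMap.ker (M - 1)) + 2 ≤ finrank K V → ∀ (ψ : V →ₗ[K] K) (t : V), ψ ≠ 0 → t ≠ 0 →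
    LevC M (k + 2) ψ t := by
  induction k with
  | zero =>
    intro V _ _ _ M hd hM hns hN ψ t hψ ht
    obtain ⟨v, φ, h1, e1, e2, e3, e4, e5⟩ := levu_step_two h hd hns hN hψ ht
    have h0 : φ (M v) ≠ 0 := by simp [e1]
    have h2 : finrank K (LinearMap.ker φ) = 1 := by have := finrank_ker_add_one v φ h1; omega
    have h3 := eq_one_of_det h2 (M := schur M v φ h0) (by simpa [hM, e1] using (det_schur M v φ h1 h0).symm)
    refine LevC.step h1 h0 e1 e2 e3 ⟨1, nd_of_one h2 _, nd_of_one h2 _, by simp [LinearMap.charpoly_one, h2],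
      by simp [LinearMap.charpoly_one, h2, h3],
      fun w w0 _ hw => e4 (LinearMap.ext fun x => ?_), fun _ x hx => e5 ?_⟩
    · obtain ⟨c, rfl⟩ := exists_smul_of_one h2 w0 x
      rw [map_smul, hw]; simp
    · have : svec M v φ h1 = 0 := by simpa [h3] using hx
      simpa [svec, e1, sub_eq_zero] using congrArg Subtype.val this
  | succ k ih =>
    intro V _ _ _ M hd hM hns hN ψ t hψ ht
    obtain ⟨v, φ, h1, h0, e1, e2, e3, e4, e5, e6, e7⟩ := lev_step h (by omega) hM hns hN hψ ht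
    have := finrank_ker_add_one v φ h1
    exact LevC.step h1 h0 e1 e2 e3 (ih _ (schur M v φ h0) (by omega)
      (by simpa [hM, e1] using (det_schur M v φ h1 h0).symm) e6 e7 _ (svec M v φ h1) e4
      (fun h => e5 (by simpa [e1, sub_eq_zero] using congrArg Subtype.val h)))

theorem levu_rank_one (h : Big K 3) (k : ℕ) : ∀ (V : Type u) [AddCommGroup V] [Module K V] [FiniteDimensional K V]
    (θ : V →ₗ[K] K) (u : V), finrank K V = k + 1 → θ u = 0 →
    Fct (1 + θ.smulRight u) ((X - C 1) ^ (k + 1)) ((X - C 1) ^ (k + 1)) := by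
  induction k with
  | zero =>
    intro V _ _ _ θ u hd hu
    have e : θ.smulRight u = 0 := LinearMap.ext fun x => by
      by_cases h0 : u = 0
      · simp [h0]
      · obtain ⟨c, rfl⟩ := exists_smul_of_one hd h0 x
        simp [hu]
    exact ⟨1, nd_of_one hd _, nd_of_one hd _, by simp [LinearMap.charpoly_one, hd],
      by simp [LinearMap.charpoly_one, hd, e]⟩
  | succ k ih =>
    intro V _ _ _ θ u hd hu
    obtain ⟨φ, φ0, hφ⟩ := (K ∙ u).exists_le_ker_of_lt_top (lt_top_iff_ne_top.mpr fun h => by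
      have h2 : finrank K (K ∙ u) ≤ 1 := by
        simpa using finrank_span_le_card (R := K) ({u} : Set V)
      rw [h, finrank_top] at h2
      omega)
    have hu' : φ u = 0 := hφ (Submodule.mem_span_singleton_self u)
    obtain ⟨v, h1⟩ := LinearMap.surjective φ0 1
    have := finrank_ker_add_one v φ h1
    have : Nontrivial (LinearMap.ker φ) := Module.nontrivial_of_finrank_pos (R := K) (by omega)
    let u' : LinearMap.ker φ := ⟨u, hu'⟩
    let θ' := θ ∘ₗ (LinearMap.ker φ).subtype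
    have h2 := (ih _ θ' u' (by omega) hu).ext_one h (fun x y hxy => by
      have h3 := congrArg θ' hxy
      have h4 : θ' u' = 0 := hu
      simp only [LinearMap.add_apply, Module.End.one_apply, LinearMap.smulRight_apply, map_add,
        map_smul, h4, smul_zero, add_zero] at h3 hxy
      simpa [h3] using hxy) (LinearMap.toSpanSingleton K _ (θ v • u')) 1 1
    rw [one_mul, ← pow_succ] at h2
    refine h2.of_sim ((sim_blk_swap _ _ _ _).trans (Sim.symm (sim_iff.mpr ⟨ssplit v φ h1,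
      fun x => ?_⟩)))
    refine Prod.ext ?_ (Subtype.ext ?_)
    · simp [ssplit_apply, hu']
    · simp [ssplit_apply, hu', u', θ', smul_smul, sub_smul]
      abel

/-- Lev's theorem for regular unipotent elements. -/
theorem levu (h : Big K 4) {V : Type u} [AddCommGroup V] [Module K V] [FiniteDimensional K V] {k : ℕ}
    (hd : finrank K V = k + 2) {M : End K V} (hM : LinearMap.det M = 1) (hns : NS M) :
    Fct M ((X - C 1) ^ (k + 2)) ((X - C 1) ^ (k + 2)) := by
  by_cases hN : finrank K (LinearMap.ker (M - 1)) + 2 ≤ finrank K V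
  · have : Nontrivial V := Module.nontrivial_of_finrank_pos (R := K) (by omega)
    obtain ⟨v, hv⟩ := exists_ne (0 : V)
    obtain ⟨φ, hφ⟩ := Module.Projective.exists_dual_eq_one K hv
    obtain ⟨B, b1, b2, b3, b4, -⟩ := levu_ind h k V M hd hM (fun c hc => by
      rw [hc, hns c hc, one_smul, sub_self, LinearMap.ker_zero, finrank_top] at hN
      omega) hN φ v (by rintro rfl; simp at hφ) hv
    exact ⟨B, b1, b2, b3, b4⟩
  obtain ⟨u, hu⟩ := finrank_le_one_iff.mp (show finrank K (LinearMap.range (M - 1)) ≤ 1 by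
    have := (M - 1).finrank_range_add_finrank_ker; omega)
  obtain ⟨θ, hθ⟩ : ∃ θ : V →ₗ[K] K, M = 1 + θ.smulRight (u : V) := by
    by_cases h0 : (u : V) = 0
    · refine ⟨0, LinearMap.ext fun x => ?_⟩
      obtain ⟨c, hc⟩ := hu ⟨_, x, rfl⟩
      simpa [h0, eq_sub_iff_add_eq, eq_comm] using congrArg Subtype.val hc
    · obtain ⟨φ, hφ⟩ := Module.Projective.exists_dual_eq_one K h0
      refine ⟨φ ∘ₗ (M - 1), LinearMap.ext fun x => ?_⟩
      obtain ⟨c, hc⟩ := hu ⟨_, x, rfl⟩
      have hc' : c • (u : V) = (M - 1) x := congrArg Subtype.val hc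
      rw [LinearMap.add_apply, LinearMap.smulRight_apply, LinearMap.comp_apply, ← hc', map_smul, hφ,
        smul_eq_mul, mul_one, hc']
      simp
  rw [hθ]
  refine levu_rank_one (h.mono (by omega)) (k + 1) V θ u hd (by_contra fun h0 => ?_)
  have θ0 : θ ≠ 0 := by rintro rfl; simp at h0
  obtain ⟨v, h1⟩ := LinearMap.surjective θ0 1
  have e1 : θ (M v) = 1 + θ u := by simp [hθ, h1]
  have h2 : θ (M v) ≠ 0 := fun h2 => by
    obtain ⟨x, rfl⟩ := LinearMap.injective_iff_surjective.mp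
      (injective_of_det (M := M) (by simp [hM])) v
    rw [e1] at h2
    rw [hθ] at h1
    simp only [LinearMap.add_apply, Module.End.one_apply, LinearMap.smulRight_apply, map_add,
      map_smul, smul_eq_mul] at h1
    exact one_ne_zero (α := K) (by linear_combination θ x * h2 - h1)
  have e2 : schur M v θ h2 = 1 := by
    ext w
    have : M w = w := by simp [hθ]
    simp [schur_val, this]
  have := det_schur M v θ h1 h2
  rw [e2, hM, e1] at this
  exact h0 (by simpa using this)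

end Cfsg.Agent.Thm
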