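import Cfsg.Agent.Thm.LevU
import Cfsg.Agent.GLn.Blocks
import Cfsg.Agent.RGD.TypeA

/-!
Regular unipotent matrices.
-/

set_option autoImplicit false

open Polynomial Module Matrix

namespace Cfsg.Agent.Thm

open Cfsg.Agent.GLn Cfsg.Agent.Fac Cfsg.Agent.Ore Cfsg.Agent.RGD

variable {K : Type*} [Field K] {n : ℕ}

/-- regular unipotent -/
def RU (A : Matrix (Fin n) (Fin n) K) : Prop := ND (toLin' A) ∧ A.charpoly = (X - C 1) ^ n

theorem RU.isConj {A B : Matrix (Fin n) (Fin n) K} (hA : RU A) (hB : RU B) : IsConj A B :=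
  isConj_of_nd hA.1 hB.1 (hA.2.trans hB.2.symm) (simple_of_splits A.charpoly_monic.ne_zero (by
    rw [hA.2]; exact (Splits.X_sub_C 1).pow n))

theorem RU.nil {A : Matrix (Fin n) (Fin n) K} (hA : RU A) : IsNilpotent (A - 1) :=
  ⟨n, by simpa [hA.2] using A.aeval_self_charpoly⟩

theorem RU.det {A : Matrix (Fin n) (Fin n) K} (hA : RU A) : A.det = 1 := by
  rw [det_of_isNilpotent_sub (c := 1) (by simpa using hA.nil), one_pow]

theorem RU.transpose {A : Matrix (Fin n) (Fin n) K} (hA : RU A) : RU Aᵀ :=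
  ⟨nd_transpose hA.1, by rw [charpoly_transpose, hA.2]⟩

theorem RU.inv {A B : Matrix (Fin n) (Fin n) K} (hA : RU A) (h : A * B = 1) : RU B := by
  have h' : B * A = 1 := mul_eq_one_comm.1 h
  refine ⟨fun c => ?_, ?_⟩
  · obtain ⟨w, hw⟩ := hA.1 c⁻¹
    refine ⟨w, fun u hu => ?_⟩
    rw [toLin'_apply] at hu
    have h1 : u = c • (A *ᵥ u) := by rw [← mulVec_smul, ← hu, mulVec_mulVec, h, one_mulVec]
    by_cases hc : c = 0
    · exact ⟨0, by rw [h1, hc]; simp⟩
    · refine hw u ?_
      rw [toLin'_apply]; nth_rw 2 [h1]; rw [smul_smul, inv_mul_cancel₀ hc, one_smul]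
  · have h2 : Commute (-B) (A - 1) := by
      rw [commute_iff_eq]; simp only [mul_sub, sub_mul, neg_mul, mul_neg, h, h', mul_one, one_mul]; abel
    have := charpoly_of_isNilpotent_sub (A := B) (c := 1) (by
      have e : B - algebraMap K _ 1 = -B * (A - 1) := by simp [mul_sub, h']; abel
      rw [e]; exact h2.isNilpotent_mul_left hA.nil)
    rwa [Fintype.card_fin] at this

/-- upper unitriangular -/
def UT (A : Matrix (Fin n) (Fin n) K) : Prop := (∀ i j, j < i → A i j = 0) ∧ ∀ i, A i i = 1

theorem UT.ru {A : Matrix (Fin n) (Fin n) K} (h : UT A) (h' : ∀ i j : Fin n, j.val = i.val + 1 → A i j ≠ 0) :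
    RU A := by
  classical
  refine ⟨fun c => ⟨fun i => if i.val = 0 then 1 else 0, fun u hu => ?_⟩, ?_⟩
  · rw [toLin'_apply] at hu
    have key : ∀ j : Fin n, j.val ≠ 0 → u j = 0 := by
      by_contra h0
      push Not at h0
      obtain ⟨i, ⟨i0, hi⟩, hmax⟩ := Set.exists_max_image {j : Fin n | j.val ≠ 0 ∧ u j ≠ 0} id (Set.toFinite _) h0
      have h1 : ∀ j, i < j → u j = 0 := fun j hj => by_contra fun h2 =>
        absurd (hmax j ⟨by have : i.val < j.val := hj; omega, h2⟩) (not_le.2 hj)
      have h2 := congrFun hu i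
      rw [mulVec, dotProduct, Finset.sum_eq_single i (fun j _ hj => by
        rcases lt_or_gt_of_ne hj with h3 | h3
        · rw [h.1 i j h3, zero_mul]
        · rw [h1 j h3, mul_zero]) (by simp), h.2, Pi.smul_apply, smul_eq_mul] at h2
      obtain rfl : 1 = c := mul_right_cancel₀ hi h2
      let k : Fin n := ⟨i.val - 1, by omega⟩
      have hk : k ≠ i := fun e => by have : i.val - 1 = i.val := congrArg Fin.val e; omega
      have h3 := congrFun hu k
      rw [mulVec, dotProduct, Finset.sum_eq_add_of_mem k i (by simp) (by simp) hk (fun j _ hj => by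
        by_cases h3 : j < k
        · rw [h.1 k j h3, zero_mul]
        · refine (h1 j ?_).symm ▸ mul_zero _
          have a1 : ¬ j.val < i.val - 1 := h3
          have a2 : j.val ≠ i.val - 1 := fun e => hj.1 (Fin.ext e)
          have a3 : j.val ≠ i.val := fun e => hj.2 (Fin.ext e)
          change i.val < j.val; omega), h.2] at h3
      exact mul_ne_zero (h' k i (by change i.val = i.val - 1 + 1; omega)) hi (by simpa using h3)
    by_cases hn : n = 0
    · subst hn; exact ⟨0, Subsingleton.elim _ _⟩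
    have hn' : 0 < n := by omega
    refine ⟨u ⟨0, hn'⟩, funext fun j => ?_⟩
    by_cases hj : j.val = 0
    · obtain rfl : j = ⟨0, hn'⟩ := Fin.ext hj
      simp
    · simp [hj, key j hj]
  · rw [charpoly_of_isUpperTriangular A fun i j hij => h.1 i j hij]
    simp [h.2]

theorem UT.mul {A B : Matrix (Fin n) (Fin n) K} (hA : UT A) (hB : UT B) : UT (A * B) ∧
    ∀ i j : Fin n, j.val = i.val + 1 → (A * B) i j = A i j + B i j := by
  refine ⟨⟨fun i j hij => ?_, fun i => ?_⟩, fun i j hij => ?_⟩
  · rw [mul_apply]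
    refine Finset.sum_eq_zero fun k _ => ?_
    by_cases h : k < i
    · rw [hA.1 i k h, zero_mul]
    · rw [hB.1 k j (hij.trans_le (not_lt.1 h)), mul_zero]
  · rw [mul_apply, Finset.sum_eq_single i (fun j _ hj => by
      rcases lt_or_gt_of_ne hj with h3 | h3
      · rw [hA.1 i j h3, zero_mul]
      · rw [hB.1 j i h3, mul_zero]) (by simp), hA.2, hB.2, one_mul]
  · rw [mul_apply, Finset.sum_eq_add_of_mem i j (by simp) (by simp)
      (fun e => by rw [e] at hij; omega) (fun k _ hk => by
        by_cases h3 : k < i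
        · rw [hA.1 i k h3, zero_mul]
        · refine (hB.1 k j ?_).symm ▸ mul_zero _
          have a1 : ¬ k.val < i.val := h3
          have a2 : k.val ≠ i.val := fun e => hk.1 (Fin.ext e)
          have a3 : k.val ≠ j.val := fun e => hk.2 (Fin.ext e)
          change j.val < k.val; omega), hA.2, hB.2, one_mul, mul_one, add_comm]

theorem ut_one : UT (1 : Matrix (Fin n) (Fin n) K) :=
  ⟨fun _ _ h => one_apply_ne h.ne', fun _ => one_apply_eq _⟩

theorem ut_list {m : ℕ} (c : Fin m → K) (l : List (Fin m)) :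
    UT (l.map fun i => Matrix.transvection i.castSucc i.succ (c i)).prod ∧ ∀ j : Fin m,
      (l.map fun i => Matrix.transvection i.castSucc i.succ (c i)).prod j.castSucc j.succ = l.count j * c j := by
  induction l with
  | nil => exact ⟨ut_one, fun j => by simp [one_apply_ne (castSucc_ne_succ j)]⟩
  | cons i l ih =>
    have h1 : UT (Matrix.transvection i.castSucc i.succ (c i)) := by
      refine ⟨fun a b h => ?_, fun a => ?_⟩
      · rw [Matrix.transvection, Matrix.add_apply, one_apply_ne h.ne', single_apply_of_ne, add_zero]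
        rintro ⟨rfl, rfl⟩
        exact absurd h (not_lt.2 Fin.castSucc_lt_succ.le)
      · rw [Matrix.transvection, Matrix.add_apply, one_apply_eq, single_apply_of_ne, add_zero]
        rintro ⟨h1, h2⟩
        exact castSucc_ne_succ i (h1.trans h2.symm)
    have h2 := h1.mul ih.1
    refine ⟨h2.1, fun j => ?_⟩
    rw [List.map_cons, List.prod_cons, h2.2 _ _ (by simp), ih.2, Matrix.transvection, Matrix.add_apply,
      one_apply_ne (castSucc_ne_succ j), List.count_cons]
    by_cases e : i = j
    · subst e; simp; ring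
    · rw [single_apply_of_ne _ _ _ _ _ (fun h => e (Fin.castSucc_inj.1 h.1))]; simp [e]

theorem ru_list {m : ℕ} {c : Fin m → K} (hc : ∀ i, c i ≠ 0) {l : List (Fin m)} (hl : ∀ j, l.count j = 1) :
    RU (l.map fun i => Matrix.transvection i.castSucc i.succ (c i)).prod := by
  refine (ut_list c l).1.ru fun i j hij => ?_
  have hi : i.val < m := by omega
  have h := (ut_list c l).2 ⟨i.val, hi⟩
  rw [hl] at h
  obtain rfl : j = Fin.succ ⟨i.val, hi⟩ := Fin.ext hij
  exact fun e => hc _ (by simpa using h.symm.trans e)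

theorem ru_list' {m : ℕ} {c : Fin m → K} (hc : ∀ i, c i ≠ 0) {l : List (Fin m)} (hl : ∀ j, l.count j = 1) :
    RU (l.map fun i => Matrix.transvection i.succ i.castSucc (c i)).prod := by
  have := (ru_list hc (l := l.reverse) (by simpa using hl)).transpose
  rw [transpose_list_prod, ← List.map_reverse, ← List.map_reverse, List.reverse_reverse, List.map_map] at this
  convert this using 3
  ext i a b
  simp [Matrix.transvection, one_apply, single, eq_comm, and_comm]

theorem exists_ru_mul (h : Big K 4) (hn : 2 ≤ n) {A : Matrix (Fin n) (Fin n) K} (hA : A.det = 1)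
    (hns : ∀ c : K, A = c • 1 → c = 1) : ∃ Y Z, RU Y ∧ RU Z ∧ A = Y * Z := by
  obtain ⟨k, rfl⟩ : ∃ k, n = k + 2 := ⟨n - 2, by omega⟩
  obtain ⟨B, b1, b2, b3, b4⟩ := levu h (k := k) (M := toLin' A) (by simp) (by simpa using hA)
    fun c hc => hns c (toLin'.injective (by simp [hc]; rfl))
  obtain ⟨B, rfl⟩ := toLin'.surjective B
  have e : toLin' A * toLin' B = toLin' (A * B) := (toLin'_mul A B).symm
  rw [e] at b2 b4
  rw [charpoly_toLin'] at b3 b4
  have hB : RU B := ⟨b1, b3⟩
  have h1 : B * B⁻¹ = 1 := mul_nonsing_inv _ (by simp [hB.det])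
  exact ⟨A * B, B⁻¹, ⟨b2, b4⟩, hB.inv h1, by rw [mul_assoc, h1, mul_one]⟩

end Cfsg.Agent.Thm
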