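import Cfsg.Agent.Thm.EG
import Cfsg.Agent.Thm.RU
import Cfsg.Agent.Thm.HomA
import Cfsg.Agent.GLn.AutStd
import Cfsg.Agent.Lang.Tor

/-!
Thompson's conjecture for a Chevalley group with a torus element whose centraliser is a Levi subgroup of type `A`.
-/

set_option autoImplicit false

namespace Cfsg.Agent.Thm

open Cfsg.Lie Cfsg.Lie.ChevalleyDatum Cfsg.Agent.Chev Equiv Cfsg.Agent.RGD Matrix Cfsg.Agent.GLn

attribute [-simp] zsmul_eq_mul nsmul_eq_mul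

variable {D : ChevalleyDatum} {C : Cert D} {F : Type*} [Field F] {G : Type*} [Group G] {S : Sys C F G}

theorem eq_one_of_commute {T : Set (Rt D)} (hT : C.Closed T) (hp : C.Nil T) {u a : G} (hu : u ∈ S.U T)
    (ha : a ∈ S.H) (h : u * a = a * u) (h1 : ∀ r ∈ T, S.chi a r ≠ 1) : u = 1 := by
  obtain ⟨w, hw, hp⟩ := hp
  obtain ⟨m, hm⟩ := S.exists_over hw
  have h2 := Lang.mem_U_of_commute (hT.preimage (inv_mem hm.mem_Aut)) (fun r hr => by simpa using hp _ hr)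
    (hm.acts.conj_mem (T := T) (fun r hr => by simpa using hr) hu) (S.N_conj_H hm.mem_N ha) (by
      calc _ = m * (a * u) * a⁻¹ * m⁻¹ := by group
        _ = _ := by rw [← h]; group)
  have h3 : ⇑w⁻¹ ⁻¹' T ∩ {r | S.chi (m * a * m⁻¹) r = 1} = ∅ := Set.eq_empty_of_forall_notMem fun r hr =>
    h1 _ hr.1 (by rw [← Sys.chi_conj hm ha]; simpa using hr.2)
  rw [h3, S.U_empty] at h2
  simpa [mul_inv_eq_one] using h2

/-- the diagonal `(t, 1, …, 1)` -/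
def dd {n : ℕ} (t : Fˣ) (i : Fin n) : Fˣ := if i.val = 0 then t else 1

theorem exists_sl_dd {m : ℕ} (P : GL (Fin (m + 1)) F) : ∃ (s : SpecialLinearGroup (Fin (m + 1)) F) (t : Fˣ)
    (d : GL (Fin (m + 1)) F), d.1 = diagonal (fun i => (dd t i : F)) ∧ ∀ x, cjSL P x = s * cjSL d x * s⁻¹ := by
  let t := GeneralLinearGroup.det P
  have h1 : (diagonal fun i : Fin (m + 1) => (dd t i : F)).det = t := by
    rw [det_diagonal, Fin.prod_univ_succ]; simp [dd]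
  let d : GL (Fin (m + 1)) F := GeneralLinearGroup.mkOfDetNeZero _ (h1 ▸ t.ne_zero)
  have h2 : GeneralLinearGroup.det d = t := Units.ext h1
  have h3 : (P * d⁻¹).1.det = 1 := by
    have : GeneralLinearGroup.det (P * d⁻¹) = 1 := by rw [map_mul, map_inv, h2, mul_inv_cancel]
    exact congrArg Units.val this
  let s : SpecialLinearGroup (Fin (m + 1)) F := ⟨_, h3⟩
  refine ⟨s, t, d, rfl, fun x => ?_⟩
  rw [← cjSL_toGL, ← MulAut.mul_apply, ← map_mul]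
  congr 2
  exact (inv_mul_cancel_right P d).symm.trans (congrArg (· * d) (Units.ext rfl))

variable (S) in
/-- a torus element whose centraliser is a Levi subgroup of type `A_m × ⋯ × A_m` -/
structure LD (κ : Type) (m : ℕ) where
  ρ : κ → ARoot (m + 1) → Rt D
  ε : κ → ARoot (m + 1) → Fˣ
  ψ : κ → (SpecialLinearGroup (Fin (m + 1)) F →* G)
  ψ_x : ∀ k r t, ψ k ((slFam F (m + 1)).x r t) = S.x (ρ k r) (ε k r * t)
  f : (Nd D → ℤ) →ₗ[ℤ] ℤ
  f_sp : ∀ i, 0 ≤ f (C.rc (C.sp i))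
  zero_iff : ∀ s, f (C.rc s) = 0 ↔ ∃ k r, s = ρ k r
  pos_iff : ∀ k r, C.Pos (ρ k r) ↔ r.1.1 < r.1.2
  rev : ∀ k r, ρ k ⟨(r.1.2, r.1.1), r.2.symm⟩ = (ρ k r).rev
  comm : ∀ k k', k ≠ k' → ∀ r r', ρ k' r' ≠ (ρ k r).rev ∧ C.N (ρ k r) (ρ k' r') = 0
  a : G
  a_mem : a ∈ S.H
  chi_a : ∀ s, S.chi a s = 1 ↔ f (C.rc s) = 0
  tor : ∀ t : κ → Fˣ, ∃ b ∈ S.H, ∀ k r, S.chi b (ρ k r) = dd (t k) r.1.1 / dd (t k) r.1.2
  real : ∃ n w, S.Over n w ∧ n * a * n⁻¹ = a⁻¹ ∧ ∀ k r, w (ρ k r) = (ρ k r).rev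

namespace LD

variable {κ : Type} {m : ℕ} (L : LD S κ m) [Nontrivial (Fin (m + 1))]

theorem ψ_mem (k : κ) {T : Set (Rt D)} (h : ∀ r, L.ρ k r ∈ T) (y : SpecialLinearGroup (Fin (m + 1)) F) :
    L.ψ k y ∈ S.U T := by
  have : (⊤ : Subgroup (SpecialLinearGroup (Fin (m + 1)) F)) ≤ (S.U T).comap (L.ψ k) := by
    rw [← slFam_top (m + 1)]
    exact US_le fun r _ => Fam.X_le _ fun t => by
      rw [Subgroup.mem_comap, L.ψ_x]; exact S.x_mem_U (h r) _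
  exact this (Subgroup.mem_top y)

theorem ψ_comm : Pairwise fun k k' => ∀ x y, Commute (L.ψ k x) (L.ψ k' y) := fun k k' h x y => by
  refine S.commute_of_mem_U (T := Set.range (L.ρ k)) ?_ (L.ψ_mem k (fun r => Set.mem_range_self r) x)
  rintro _ ⟨r, rfl⟩ t
  refine (S.commute_of_mem_U (T := Set.range (L.ρ k')) ?_ (L.ψ_mem k' (fun r => Set.mem_range_self r) y)).symm
  rintro _ ⟨r', rfl⟩ t'
  exact (S.commute_of_N (L.comm k k' h r r').1 (L.comm k k' h r r').2 t t').symm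

variable [Fintype κ]

/-- the semisimple part of the Levi subgroup -/
def Ψ : (κ → SpecialLinearGroup (Fin (m + 1)) F) →* G := MonoidHom.noncommPiCoprod L.ψ L.ψ_comm

theorem Ψ_apply (Y : κ → SpecialLinearGroup (Fin (m + 1)) F) :
    L.Ψ Y = Finset.univ.noncommProd (fun k => L.ψ k (Y k)) fun _ _ _ _ h => L.ψ_comm h _ _ := rfl

theorem Ψ_conj {b : G} {Y Y' : κ → SpecialLinearGroup (Fin (m + 1)) F}
    (h : ∀ k, b * L.ψ k (Y k) * b⁻¹ = L.ψ k (Y' k)) : b * L.Ψ Y * b⁻¹ = L.Ψ Y' := by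
  rw [Ψ_apply, Ψ_apply]
  exact (Finset.map_noncommProd _ _ _ (MulAut.conj b)).trans (Finset.noncommProd_congr rfl (fun k _ => h k) _)

theorem Ψ_mem (Y : κ → SpecialLinearGroup (Fin (m + 1)) F) : L.Ψ Y ∈ S.U {s | L.f (C.rc s) = 0} := by
  rw [Ψ_apply]
  exact Subgroup.noncommProd_mem _ _ fun k _ => L.ψ_mem k (fun r => (L.zero_iff _).2 ⟨k, r, rfl⟩) _

theorem Ψ_a (Y : κ → SpecialLinearGroup (Fin (m + 1)) F) : Commute (L.Ψ Y) L.a :=
  Lang.commute_of_chi L.a_mem (fun r hr => (L.chi_a r).2 hr) (L.Ψ_mem Y)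

theorem exists_Ψ {T : Set (Rt D)} (hT : ∀ s ∈ T, L.f (C.rc s) = 0)
    (P : SpecialLinearGroup (Fin (m + 1)) F → Prop) (h1 : P 1)
    (h2 : ∀ k r t y, L.ρ k r ∈ T → P y → P ((slFam F (m + 1)).x r t * y)) {u : G} (hu : u ∈ S.U T) :
    ∃ Y, (∀ k, P (Y k)) ∧ u = L.Ψ Y := by
  classical
  refine S.U_induction (P := fun u => ∃ Y, (∀ k, P (Y k)) ∧ u = L.Ψ Y) ⟨1, fun _ => h1, (map_one _).symm⟩ ?_ hu
  rintro s hs t _ - ⟨Y, hY, rfl⟩
  obtain ⟨k, r, rfl⟩ := (L.zero_iff s).1 (hT s hs)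
  refine ⟨Pi.mulSingle k ((slFam F (m + 1)).x r ((L.ε k r)⁻¹ * t)) * Y, fun k' => ?_, ?_⟩
  · by_cases e : k' = k
    · subst e; simpa using h2 _ _ _ _ hs (hY k')
    · simpa [Pi.mulSingle_eq_of_ne e] using hY k'
  · rw [map_mul, Ψ, MonoidHom.noncommPiCoprod_mulSingle, L.ψ_x]; simp

theorem conj_ru (hφ : Function.Injective S.φ) {Y Y' : κ → SpecialLinearGroup (Fin (m + 1)) F}
    (h : ∀ k, RU (Y k).1) (h' : ∀ k, RU (Y' k).1) : ∃ l, Commute l L.a ∧ l * L.Ψ Y * l⁻¹ = L.Ψ Y' := by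
  have h1 : ∀ k, ∃ (s : SpecialLinearGroup (Fin (m + 1)) F) (t : Fˣ) (d : GL (Fin (m + 1)) F),
      d.1 = diagonal (fun i => (dd t i : F)) ∧ Y' k = s * cjSL d (Y k) * s⁻¹ := fun k => by
    obtain ⟨P, hP⟩ := (h k).isConj (h' k)
    obtain ⟨s, t, d, h1, h2⟩ := exists_sl_dd P
    exact ⟨s, t, d, h1, by rw [← h2]; exact Subtype.ext (by rw [cjSL_val, hP.eq, Units.mul_inv_cancel_right])⟩
  choose s t d h1 h2 using h1
  obtain ⟨b, hb, h3⟩ := L.tor t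
  have h4 : b * L.Ψ Y * b⁻¹ = L.Ψ fun k => cjSL (d k) (Y k) := L.Ψ_conj fun k =>
    DFunLike.congr_fun (slFam_hom_ext (f := (MulAut.conj b).toMonoidHom.comp (L.ψ k))
      (g := (L.ψ k).comp (cjSL (d k)).toMonoidHom) fun r t' => by
        have := cjSL_diag_tv (h1 k) (fun i => Units.ne_zero _) r.2 t'
        change b * L.ψ k _ * b⁻¹ = L.ψ k (cjSL (d k) (SpecialLinearGroup.transvection r.2 t'))
        rw [this, L.ψ_x, Sys.H_conj_x hb, h3]
        refine Eq.trans ?_ (L.ψ_x k r _).symm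
        congr 1; simp; ring) (Y k)
  refine ⟨L.Ψ s * b, (L.Ψ_a s).mul_left (S.H_comm hφ hb L.a_mem), ?_⟩
  rw [show Y' = s * (fun k => cjSL (d k) (Y k)) * s⁻¹ from funext h2, map_mul, map_mul, map_inv, ← h4]; group

theorem fpf [Finite F] [Finite G] {Y : κ → SpecialLinearGroup (Fin (m + 1)) F} (h : ∀ k, RU (Y k).1)
    (f : (Nd D → ℤ) →ₗ[ℤ] ℤ) (hf : ∀ s, f (C.rc s) = 0 ↔ L.f (C.rc s) = 0) {u : G}
    (hu : u ∈ S.U {s | 1 ≤ f (C.rc s)}) :
    IsConj (L.a * L.Ψ Y) (u * (L.a * L.Ψ Y)) ∧ IsConj (L.a * L.Ψ Y) (L.a * L.Ψ Y * u) := by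
  obtain ⟨p, hp⟩ := CharP.exists F
  have : Fact p.Prime := ⟨CharP.char_is_prime F p⟩
  have h1 : ∀ u ∈ S.U {s | 1 ≤ f (C.rc s)}, L.a * L.Ψ Y * u * (L.a * L.Ψ Y)⁻¹ ∈ S.U {s | 1 ≤ f (C.rc s)} :=
    fun u hu => S.conj_ge f one_pos (mul_mem (Subgroup.mem_sup_right L.a_mem) (Subgroup.mem_sup_left
      (S.U_mono (fun s hs => ((hf s).2 hs).ge) (L.Ψ_mem Y)))) hu
  have h2 : (L.a * L.Ψ Y) ^ p ^ Nat.clog p (m + 1) = L.a ^ p ^ Nat.clog p (m + 1) := by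
    have : Y ^ p ^ Nat.clog p (m + 1) = 1 := funext fun k => Subtype.ext (by
      have := orderOf_dvd_iff_pow_eq_one.1 (orderOf_dvd_of_unipotent p (h k).nil)
      rw [Fintype.card_fin] at this
      exact this)
    rw [(L.Ψ_a Y).symm.mul_pow, ← map_pow, this, map_one, mul_one]
  have h3 : ∀ u ∈ S.U {s | 1 ≤ f (C.rc s)}, ∃ v, u * (L.a * L.Ψ Y) = v * (L.a * L.Ψ Y) * v⁻¹ := fun u hu => by
    obtain ⟨v, -, e⟩ := Ore.exists_conj_of_fpf _ h1 (fun v hv e => eq_one_of_commute (Cert.closed_ge f zero_le_one)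
      (Cert.nil_of_fun f fun r hr => hr) hv (pow_mem L.a_mem (p ^ Nat.clog p (m + 1)))
      (h2 ▸ (Commute.pow_right e _).eq) fun r hr e => by
        rw [Sys.chi_pow L.a_mem] at e
        have e1 : (S.chi L.a r : F) = 1 := by
          have := congrArg Units.val e
          rw [Units.val_pow_eq_pow_val, Units.val_one] at this
          refine sub_eq_zero.1 (pow_eq_zero_iff (pow_ne_zero (Nat.clog p (m + 1))
            (Fact.out : p.Prime).ne_zero) |>.1 ?_)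
          rw [sub_pow_char_pow, this, one_pow, sub_self]
        have := (hf r).2 ((L.chi_a r).1 (Units.ext e1))
        have h5 : 1 ≤ f (C.rc r) := hr
        omega) hu
    exact ⟨v, e⟩
  obtain ⟨v, e⟩ := h3 u hu
  obtain ⟨v', e'⟩ := h3 _ (h1 u hu)
  exact ⟨isConj_iff.2 ⟨v, e.symm⟩, isConj_iff.2 ⟨v', by rw [← e']; group⟩⟩

include L in
theorem thompson [Finite F] [Finite G] (hφ : Function.Injective S.φ) (hF : Fac.Big F 4) :
    ∃ c : G, ∀ g : G, ∃ x y : G, g = (x * c * x⁻¹) * (y * c * y⁻¹) := by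
  have hm : 2 ≤ m + 1 := Fin.nontrivial_iff_two_le.1 inferInstance
  let e := fun i : Fin m => (RGD.typeA m).α i
  let Y₀ : κ → SpecialLinearGroup (Fin (m + 1)) F := fun _ =>
    ((List.finRange m).map fun i => (slFam F (m + 1)).x (e i) 1).prod
  have h0 : ∀ k, RU (Y₀ k).1 := fun k => by
    have := ru_list (c := fun _ : Fin m => (1 : F)) (fun _ => one_ne_zero) (l := List.finRange m) (by simp)
    convert this
    change SpecialLinearGroup.coeMonoidHom _ = _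
    rw [map_list_prod, List.map_map]; rfl
  have h1 : ∀ Y, (∀ k, RU (Y k).1) → IsConj (L.a * L.Ψ Y₀) (L.a * L.Ψ Y) := fun Y hY => by
    obtain ⟨l, l1, l2⟩ := L.conj_ru hφ h0 hY
    exact isConj_iff.2 ⟨l, by rw [← mul_assoc, l1.eq, ← l2]; group⟩
  refine ⟨L.a * L.Ψ Y₀, fun g => ?_⟩
  by_cases hg : g = 1
  · rw [hg]
    refine Ore.real_of_sq ?_
    obtain ⟨n, w, hn, n1, n2⟩ := L.real
    have h2 : ∀ k, ∃ y : SpecialLinearGroup (Fin (m + 1)) F, RU y.1 ∧ n * L.ψ k (Y₀ k) * n⁻¹ = L.ψ k y := fun k => by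
      choose c hc using hn.acts
      let c' : Fin m → F := fun i => (((L.ε k ((RGD.typeA m).neg (e i)))⁻¹ * c (L.ρ k (e i)) * L.ε k (e i) : Fˣ) : F)
      refine ⟨((List.finRange m).map fun i => (slFam F (m + 1)).x ((RGD.typeA m).neg (e i)) (c' i)).prod, ?_, ?_⟩
      · have := ru_list' (c := c') (fun _ => Units.ne_zero _) (l := List.finRange m) (by simp)
        convert this
        change SpecialLinearGroup.coeMonoidHom _ = _
        rw [map_list_prod, List.map_map]; rfl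
      · change MulAut.conj n (L.ψ k (List.prod _)) = _
        simp only [map_list_prod, List.map_map]
        congr 2
        ext i
        simp only [Function.comp_apply, L.ψ_x, MulAut.conj_apply, hc, n2]
        rw [← L.rev]
        congr 1; simp [c', mul_assoc]
    choose Y h2 h3 using h2
    obtain ⟨l, l1, l2⟩ := L.conj_ru hφ h2 (Y' := Y₀⁻¹) fun k => (h0 k).inv (by
      rw [← sl_mul, Pi.inv_apply, mul_inv_cancel]; rfl)
    refine isConj_iff.2 ⟨l * n, ?_⟩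
    calc _ = l * ((n * L.a * n⁻¹) * (n * L.Ψ Y₀ * n⁻¹)) * l⁻¹ := by group
      _ = L.a⁻¹ * (l * L.Ψ Y * l⁻¹) := by rw [n1, L.Ψ_conj h3, ← mul_assoc, l1.inv_right.eq]; group
      _ = _ := by rw [l2, map_inv, ← (L.Ψ_a Y₀).eq, _root_.mul_inv_rev]
  obtain ⟨y, v, hv, u, hu, e1⟩ := gauss hφ hg (mul_mem L.a_mem L.a_mem)
  have p1 : ∀ s, C.Pos s → 0 ≤ L.f (C.rc s) := fun s hs =>
    Cert.nonneg_of_dom (J := Set.univ) (fun j _ => L.f_sp j) hs (C.inJ_univ s)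
  obtain ⟨v1, hv1, v2, hv2, rfl⟩ := S.split (T1 := {s | 1 ≤ (-L.f) (C.rc s)}) (T2 := {s | L.f (C.rc s) = 0})
    Cert.closed_neg (Cert.nil_of_neg fun _ h => h) (fun s hs => by
      have := p1 s.rev ((C.pos_rev_iff _).2 hs)
      rw [C.rc_neg, map_neg] at this
      simp only [Set.mem_union, Set.mem_ofPred_eq, LinearMap.neg_apply]; omega) hv
  obtain ⟨u2, hu2, u1, hu1, rfl⟩ := S.split (T2 := {s | 1 ≤ L.f (C.rc s)}) (T1 := {s | L.f (C.rc s) = 0})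
    Cert.closed_pos (Cert.nil_of_pos fun _ h => h) (fun s hs => by
      have := p1 s hs
      simp only [Set.mem_union, Set.mem_ofPred_eq]; omega) hu
  obtain ⟨V, hV, rfl⟩ := L.exists_Ψ (fun _ h => h.2) (fun y => ∀ j, y.1 0 j = (1 : Matrix _ _ F) 0 j)
    (fun _ => rfl) (fun k r t y h1 h2 j => by
      have : r.1.1 ≠ 0 := fun e => h1.1 ((L.pos_iff k r).2 (e ▸ Fin.pos_iff_ne_zero.2 fun e' => r.2 (e.trans e'.symm)))
      rw [← h2, sl_mul, slFam_x, tv_val, add_mul, one_mul, Matrix.add_apply,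
        single_mul_apply_of_ne _ _ _ _ _ this.symm, add_zero]) hv2
  obtain ⟨U, hU, rfl⟩ := L.exists_Ψ (fun _ h => h.2) (fun y => ∀ j, y.1 j 0 = (1 : Matrix _ _ F) j 0)
    (fun _ => rfl) (fun k r t y h1 h2 j => by
      have : r.1.2 ≠ 0 := ((L.pos_iff k r).1 h1.1).ne_zero
      rw [← h2, sl_mul, slFam_x, tv_val, add_mul, one_mul, Matrix.add_apply]
      by_cases e : j = r.1.1
      · rw [e, single_mul_apply_same, h2 r.1.2, one_apply_ne this, mul_zero, add_zero]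
      · rw [single_mul_apply_of_ne _ _ _ _ _ e, add_zero]) hu2
  have h2 : ∀ k, ∃ Y Z : SpecialLinearGroup (Fin (m + 1)) F, RU Y.1 ∧ RU Z.1 ∧ V k * U k = Y * Z := fun k => by
    obtain ⟨Y, Z, hY, hZ, e⟩ := exists_ru_mul hF hm (V k * U k).2 fun c hc => by
      have := congrFun (congrFun hc 0) 0
      rw [sl_mul, Matrix.mul_apply] at this
      simp only [hV, hU] at this
      rw [← Matrix.mul_apply] at this
      simpa using this.symm
    exact ⟨⟨Y, hY.det⟩, ⟨Z, hZ.det⟩, hY, hZ, Subtype.ext e⟩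
  choose Y Z hY hZ h2 using h2
  obtain ⟨x1, e2⟩ := isConj_iff.1 ((h1 Y hY).trans (L.fpf hY (-L.f) (by simp)
    (S.U_mono Set.inter_subset_right hv1)).1)
  obtain ⟨x2, e3⟩ := isConj_iff.1 ((h1 Z hZ).trans (L.fpf hZ L.f (by simp)
    (S.U_mono Set.inter_subset_right hu1)).2)
  refine ⟨y⁻¹ * x1, y⁻¹ * x2, ?_⟩
  have e4 : L.Ψ V * L.Ψ U = L.Ψ Y * L.Ψ Z := by rw [← map_mul, ← map_mul, show V * U = Y * Z from funext h2]
  calc g = y⁻¹ * (y * g * y⁻¹) * y := by group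
    _ = y⁻¹ * (v1 * (L.Ψ V * (L.a * L.a)) * L.Ψ U * u1) * y := by rw [e1]; group
    _ = y⁻¹ * (v1 * (L.a * L.a) * (L.Ψ V * L.Ψ U) * u1) * y := by
      rw [((L.Ψ_a V).mul_right (L.Ψ_a V)).eq]; group
    _ = y⁻¹ * (v1 * L.a * (L.a * L.Ψ Y) * L.Ψ Z * u1) * y := by rw [e4]; group
    _ = y⁻¹ * (v1 * (L.a * L.Ψ Y) * (L.a * L.Ψ Z * u1)) * y := by
      nth_rw 1 [← (L.Ψ_a Y).eq]; group
    _ = _ := by rw [← e2, ← e3]; group

end LD

end Cfsg.Agent.Thm
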